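import Mathlib
import Cfsg.Agent.H475.GammaSol
import Cfsg.Agent.H475.ElemFusion
import Cfsg.Agent.H993.MinRed
import Cfsg.Agent.S0199
import Cfsg.Agent.H475.MaxPGroup

/-!
The condition on values of coprime orders forces solvability.
-/

set_option autoImplicit false
open Cfsg

universe u

namespace Cfsg.Agent.H475.GammaMain

open Subgroup
open scoped commutatorElement
open Cfsg.Agent.H475.GammaVal Cfsg.Agent.H475.GammaSol Cfsg.Agent.Lib.Cores

/-- In the solvable case, `G / F(G)` is nilpotent. -/
theorem quotient_nilpotent {G : Type*} [Group G] [Finite G] [Group.IsSolvable G] {k : ℕ}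
    (h : Cond G k) [hFn : (fittingSubgroup G).Normal] : Group.IsNilpotent (G ⧸ fittingSubgroup G) := by
  refine ⟨k, ?_⟩
  apply upper_eq_top
  refine (fittingSubgroup_eq_iSup_pCore (G := G ⧸ fittingSubgroup G)).le.trans ?_
  refine iSup_le fun p => ?_
  have : Fact (p : ℕ).Prime := ⟨p.2⟩
  have hn := pCore_normal (G := G ⧸ fittingSubgroup G) (p : ℕ)
  have h2 : ((pCore (p : ℕ) (G ⧸ fittingSubgroup G)).comap
      (QuotientGroup.mk' (fittingSubgroup G))).map (QuotientGroup.mk' (fittingSubgroup G)) =
      pCore (p : ℕ) (G ⧸ fittingSubgroup G) :=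
    Subgroup.map_comap_eq_self_of_surjective (QuotientGroup.mk'_surjective _) _
  conv_lhs => rw [← h2]
  refine map_le (p := (p : ℕ)) h _ ?_ ?_
  · intro x hx
    rw [Subgroup.mem_comap]
    have : QuotientGroup.mk' (fittingSubgroup G) x = 1 := by
      rwa [← MonoidHom.mem_ker, QuotientGroup.ker_mk']
    rw [this]
    exact one_mem _
  · rw [h2]
    exact pCore_isPGroup _

/-- A finite group with a normal Sylow `p`-subgroup, generated by `p`-elements, is a `p`-group. -/
theorem isPGroup_of_closure {X : Type*} [Group X] [Finite X] {p : ℕ} [Fact p.Prime] (T : Sylow p X)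
    (hT : (T : Subgroup X).Normal) {s : Set X} (hs : closure s = ⊤)
    (hsp : ∀ x ∈ s, IsPGroup p (zpowers x)) : IsPGroup p X := by
  have h1 : ∀ x ∈ s, x ∈ (T : Subgroup X) := by
    intro x hx
    obtain ⟨Q, hQ⟩ := (hsp x hx).exists_le_sylow
    have hQT : Q = T := by
      have := Sylow.unique_of_normal T hT
      exact Subsingleton.elim _ _
    rw [← hQT]
    exact hQ (mem_zpowers x)
  have h2 : (T : Subgroup X) = ⊤ := by
    rw [eq_top_iff, ← hs, closure_le]
    exact h1
  intro g
  obtain ⟨k, hk⟩ := T.isPGroup' ⟨g, by rw [h2]; exact mem_top g⟩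
  exact ⟨k, by simpa [Subtype.ext_iff] using hk⟩

/-- If `H` is solvable, satisfies the condition, and is generated by `2`-elements centralising the normal
subgroups of odd order, then `H` is a `2`-group. -/
theorem isPGroup_of_gen {H : Type*} [Group H] [Finite H] [Group.IsSolvable H] {k : ℕ} (h : Cond H k)
    {s : Set H} (hs : closure s = ⊤) (hsp : ∀ x ∈ s, IsPGroup 2 (zpowers x))
    (hcent : ∀ x ∈ s, ∀ d ∈ pPrimeCore 2 H, x * d = d * x) : IsPGroup 2 H := by
  have : Fact (Nat.Prime 2) := ⟨Nat.prime_two⟩
  have hFn : (fittingSubgroup H).Normal := fittingSubgroup_normal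
  have hDn : (pPrimeCore 2 H).Normal := pPrimeCore_normal (G := H) 2
  have hnil := quotient_nilpotent h
  -- `H / F(H)` is a `2`-group
  have hQ : IsPGroup 2 (H ⧸ fittingSubgroup H) := by
    obtain ⟨T⟩ : Nonempty (Sylow 2 (H ⧸ fittingSubgroup H)) := inferInstance
    have hT : (T : Subgroup (H ⧸ fittingSubgroup H)).Normal := inferInstance
    refine isPGroup_of_closure T hT (s := QuotientGroup.mk' (fittingSubgroup H) '' s) ?_ ?_
    · rw [← MonoidHom.map_closure, hs]
      exact Subgroup.map_top_of_surjective _ (QuotientGroup.mk'_surjective _)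
    · rintro _ ⟨x, hx, rfl⟩
      rw [← MonoidHom.map_zpowers]
      exact (hsp x hx).map _
  obtain ⟨P⟩ : Nonempty (Sylow 2 (⊤ : Subgroup H)) := inferInstance
  have hL : IsPGroup 2 ((⊤ : Subgroup H).map (QuotientGroup.mk' (fittingSubgroup H))) := by
    intro x
    obtain ⟨n, hn⟩ := hQ x.1
    exact ⟨n, Subtype.ext (by simpa using hn)⟩
  obtain ⟨h1, -⟩ := frattini (fittingSubgroup H) (⊤ : Subgroup H) le_top hL P
  set P0 : Subgroup H := (P : Subgroup (⊤ : Subgroup H)).map (⊤ : Subgroup H).subtype with hP0
  -- `D` is central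
  have hDcent : ∀ d ∈ pPrimeCore 2 H, ∀ y : H, y * d = d * y := by
    intro d hd y
    have h2 : closure s ≤ centralizer ({d} : Set H) := by
      rw [closure_le]
      intro x hx
      exact mem_centralizer_singleton_iff.2 (hcent x hx d hd)
    have h3 : y ∈ centralizer ({d} : Set H) := h2 (hs ▸ mem_top y)
    exact mem_centralizer_singleton_iff.1 h3
  have hOP : pCore 2 H ≤ P0 := by
    have h3 : (pCore 2 H).subgroupOf (⊤ : Subgroup H) ≤ P := by
      have : ((pCore 2 H).subgroupOf (⊤ : Subgroup H)).Normal := inferInstance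
      refine IsPGroup.le_sylow_of_normal ?_ P
      exact (pCore_isPGroup 2).comap_of_injective _ (⊤ : Subgroup H).subtype_injective
    intro x hx
    exact ⟨⟨x, mem_top x⟩, h3 hx, rfl⟩
  have hHD : (⊤ : Subgroup H) ≤ pPrimeCore 2 H ⊔ P0 := by
    conv_lhs => rw [h1]
    refine sup_le ((fitting_le 2).trans (sup_le ?_ le_sup_left)) le_sup_right
    exact hOP.trans le_sup_right
  have hP0p : IsPGroup 2 P0 := P.isPGroup'.map _
  have hsP : ∀ x ∈ s, x ∈ P0 := by
    intro x hx
    obtain ⟨d, hd, y, hy, hdy⟩ := Subgroup.mem_sup_of_normal_left.1 (hHD (mem_top x))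
    obtain ⟨a, ha⟩ := hsp x hx ⟨x, mem_zpowers x⟩
    obtain ⟨b, hb⟩ := hP0p ⟨y, hy⟩
    have ha' : x ^ 2 ^ a = 1 := congrArg Subtype.val ha
    have hb' : y ^ 2 ^ b = 1 := congrArg Subtype.val hb
    have hc : Commute d y := (hDcent d hd y).symm
    have h3 : d ^ 2 ^ (a + b) = 1 := by
      have h4 : x ^ 2 ^ (a + b) = 1 := by rw [pow_add, pow_mul, ha', one_pow]
      have h5 : y ^ 2 ^ (a + b) = 1 := by rw [pow_add, mul_comm, pow_mul, hb', one_pow]
      rw [← hdy, hc.mul_pow, h5, mul_one] at h4
      exact h4
    have h6 : orderOf d ∣ 2 ^ (a + b) := orderOf_dvd_of_pow_eq_one h3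
    have h7 : orderOf d ∣ Nat.card (pPrimeCore 2 H) := by
      have := orderOf_dvd_natCard (⟨d, hd⟩ : pPrimeCore 2 H)
      rwa [← Subgroup.orderOf_coe] at this
    have h8 : orderOf d ∣ 1 := by
      have h9 : (Nat.card (pPrimeCore 2 H)).Coprime (2 ^ (a + b)) := (pPrimeCore_coprime 2).pow_right _
      rw [← h9]
      exact Nat.dvd_gcd h7 h6
    have h10 : d = 1 := orderOf_eq_one_iff.1 (Nat.dvd_one.1 h8)
    rw [← hdy, h10, one_mul]
    exact hy
  have hP0t : P0 = ⊤ := by
    rw [eq_top_iff, ← hs, closure_le]
    exact hsP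
  intro g
  obtain ⟨k, hk⟩ := hP0p ⟨g, by rw [hP0t]; exact mem_top g⟩
  exact ⟨k, by simpa [Subtype.ext_iff] using hk⟩

/-- The condition forces solvability. -/
theorem isSolvable {k : ℕ} : ∀ (n : ℕ) {G : Type u} [Group G] [Finite G], Nat.card G = n →
    Cond G k → Group.IsSolvable G := by
  intro n
  induction n using Nat.strong_induction_on with
  | _ n ih =>
    intro G _ _ hn hG
    by_contra hns
    have hsub : ∀ H : Subgroup G, H ≠ ⊤ → Group.IsSolvable H := by
      intro H hH
      exact ih (Nat.card H) (hn ▸ Lib.SolvableNormalP.card_lt_of_ne_top hH) rfl (hG.subgroup H)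
    have : Fact (Nat.Prime 2) := ⟨Nat.prime_two⟩
    -- a maximal proper normal subgroup
    obtain ⟨S, ⟨hSn, hSt⟩, hSmax⟩ : ∃ S : Subgroup G, (S.Normal ∧ S ≠ ⊤) ∧
        ∀ T : Subgroup G, T.Normal → T ≠ ⊤ → S ≤ T → T = S := by
      have hfin : ({T : Subgroup G | T.Normal ∧ T ≠ ⊤} : Set (Subgroup G)).Finite := Set.toFinite _
      have hnon : ({T : Subgroup G | T.Normal ∧ T ≠ ⊤} : Set (Subgroup G)).Nonempty := by
        refine ⟨⊥, inferInstance, ?_⟩
        intro h
        exact hns (Group.isSolvable_of_top_eq_bot G h.symm)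
      obtain ⟨S, hS, hmax⟩ := hfin.exists_maximal hnon
      exact ⟨S, hS, fun T hT hT' hST => le_antisymm (hmax ⟨hT, hT'⟩ hST) hST⟩
    have hSs : Group.IsSolvable S := hsub S hSt
    have hQns : ¬ Group.IsSolvable (G ⧸ S) := fun h =>
      hns (H993.MinRed.isSolvable_of_quotient S hSs h)
    set mk := QuotientGroup.mk' S with hmk
    have hmks : Function.Surjective mk := QuotientGroup.mk'_surjective S
    have hmkS : ∀ x : G, mk x = 1 ↔ x ∈ S := fun x => by
      rw [← MonoidHom.mem_ker, hmk, QuotientGroup.ker_mk']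
    have hnontriv : Nontrivial (G ⧸ S) := QuotientGroup.nontrivial_iff.2 hSt
    have hsimple : IsSimpleGroup (G ⧸ S) := by
      refine { eq_bot_or_eq_top_of_normal := fun N hN => ?_ }
      by_cases hNt : N.comap mk = ⊤
      · right
        rw [← Subgroup.map_comap_eq_self_of_surjective hmks N, hNt]
        exact Subgroup.map_top_of_surjective _ hmks
      · left
        have h1 : S ≤ N.comap mk := by
          intro x hx
          rw [Subgroup.mem_comap, (hmkS x).2 hx]
          exact one_mem _
        have h2 := hSmax (N.comap mk) inferInstance hNt h1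
        rw [← Subgroup.map_comap_eq_self_of_surjective hmks N, h2, Subgroup.map_eq_bot_iff, hmk,
          QuotientGroup.ker_mk']
    have hna : ¬ ∀ a b : G ⧸ S, a * b = b * a := fun h => hQns (Group.isSolvable_of_comm h)
    -- an elementary abelian `2`-subgroup and an element of odd order acting on it
    obtain ⟨E, hE, t, ht, htodd, e, he, hne⟩ := ElemFusion.exists_elem hna
    -- a `2`-element value outside `S` with square in `S`
    obtain ⟨v, hvV, hv2, hvS, hvE⟩ : ∃ v : G, V k v ∧ IsPGroup 2 (zpowers v) ∧ v ∉ S ∧ v * v ∈ S := by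
      obtain ⟨t1, rfl⟩ := hmks t
      set W : Subgroup G := E.comap mk with hW
      have ht1 : t1 ∈ normalizer (W : Set G) := by
        rw [mem_normalizer_iff]
        intro x
        rw [hW, Subgroup.mem_comap, Subgroup.mem_comap, map_mul, map_mul, map_inv]
        exact mem_normalizer_iff.1 ht (mk x)
      set M : Subgroup G := normalizer (W : Set G) with hM
      set F : Subgroup M := S.subgroupOf M with hF
      set L : Subgroup M := W.subgroupOf M with hL
      have hLn : L.Normal := Subgroup.normal_in_normalizer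
      have hSW : S ≤ W := by
        intro x hx
        rw [hW, Subgroup.mem_comap, (hmkS x).2 hx]
        exact one_mem _
      have hFL : F ≤ L := fun x hx => hSW hx
      have hLp : IsPGroup 2 (L.map (QuotientGroup.mk' F)) := by
        rintro ⟨_, x, hx, rfl⟩
        refine ⟨1, ?_⟩
        apply Subtype.ext
        change (QuotientGroup.mk' F x) ^ 2 ^ 1 = 1
        rw [← map_pow, ← MonoidHom.mem_ker, QuotientGroup.ker_mk', pow_one, pow_two]
        change ((x * x : M) : G) ∈ S
        rw [← hmkS, Subgroup.coe_mul, map_mul]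
        exact hE _ hx
      obtain ⟨P⟩ : Nonempty (Sylow 2 L) := inferInstance
      obtain ⟨h1, h2⟩ := frattini F L hFL hLp P
      set P1 : Subgroup M := (P : Subgroup L).map L.subtype with hP1
      have ht1' : (⟨t1, ht1⟩ : M) ∈ normalizer (P1 : Set M) ⊔ F := h2 ▸ mem_top _
      obtain ⟨a, ha, f, hf, haf⟩ := Subgroup.mem_sup_of_normal_right.1 ht1'
      have hat : mk (a : G) = mk t1 := by
        have h3 : (a : G) * f = t1 := congrArg Subtype.val haf
        rw [← h3, map_mul, (hmkS (f : G)).2 hf, mul_one]
      set E0 : Subgroup G := P1.map M.subtype with hE0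
      have haE0 : (a : G) ∈ normalizer (E0 : Set G) := by
        have key : ∀ b ∈ normalizer (P1 : Set M), ∀ x ∈ E0, (b : G) * x * (b : G)⁻¹ ∈ E0 := by
          rintro b hb _ ⟨y, hy, rfl⟩
          exact ⟨b * y * b⁻¹, (mem_normalizer_iff.1 hb y).1 hy, by simp⟩
        rw [mem_normalizer_iff]
        intro x
        refine ⟨key a ha x, fun hx => ?_⟩
        have h3 := key a⁻¹ (inv_mem ha) _ hx
        have h4 : ((a⁻¹ : M) : G) * ((a : G) * x * (a : G)⁻¹) * ((a⁻¹ : M) : G)⁻¹ = x := by
          rw [Subgroup.coe_inv]; group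
        rwa [h4] at h3
      have hE0p : IsPGroup 2 E0 := (P.isPGroup'.map _).map _
      set m := 2 ^ (orderOf (a : G)).factorization 2 with hm
      set t2 : G := (a : G) ^ m with ht2
      have ht2odd : Odd (orderOf t2) := by
        have h3 : orderOf t2 = orderOf (a : G) / m := by
          rw [ht2]
          exact orderOf_pow_of_dvd (by positivity) (Nat.ordProj_dvd _ _)
        rw [h3]
        have h4 := Nat.coprime_ordCompl Nat.prime_two (orderOf_pos (a : G)).ne'
        rw [Nat.coprime_two_left] at h4
        exact h4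
      have ht2E0 : t2 ∈ normalizer (E0 : Set G) := Subgroup.pow_mem _ haE0 m
      have hEp : IsPGroup 2 E := fun x => ⟨1, Subtype.ext (by
        have := hE x.1 x.2
        simpa [pow_two] using this)⟩
      have hmt : mk t2 = (mk t1) ^ m := by rw [ht2, map_pow, hat]
      have hmtE : mk t2 ∈ normalizer (E : Set (G ⧸ S)) := by
        rw [hmt]; exact Subgroup.pow_mem _ ht m
      have hcop : (Nat.card E).Coprime (orderOf (mk t2)) := by
        obtain ⟨n, hn⟩ := IsPGroup.iff_card.1 hEp
        rw [hn]
        apply Nat.Coprime.pow_left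
        rw [Nat.coprime_two_left]
        exact Odd.of_dvd_nat ht2odd (orderOf_map_dvd mk t2)
      have hiter : ∀ (j : ℕ) (z : G), mk ((phi t2)^[j] z) = (phi (mk t2))^[j] (mk z) := by
        intro j
        induction j with
        | zero => intro z; rfl
        | succ j ihj =>
          intro z
          rw [Function.iterate_succ_apply', Function.iterate_succ_apply', ← ihj]
          exact map_commutatorElement mk _ _
      -- `E0` covers `E`
      have hcov : ∀ x ∈ E, ∃ y ∈ E0, mk y = x := by
        intro x hx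
        obtain ⟨w, rfl⟩ := hmks x
        have hwW : w ∈ W := hx
        have hwM : w ∈ M := Subgroup.le_normalizer hwW
        have hwL : (⟨w, hwM⟩ : M) ∈ F ⊔ P1 := h1 ▸ (show (⟨w, hwM⟩ : M) ∈ L from hwW)
        obtain ⟨f', hf', y, hy, hfy⟩ := Subgroup.mem_sup_of_normal_left.1 hwL
        refine ⟨y, ⟨y, hy, rfl⟩, ?_⟩
        have h3 : (f' : G) * y = w := congrArg Subtype.val hfy
        rw [← h3, map_mul, (hmkS (f' : G)).2 hf', one_mul]
      obtain ⟨b, hb, hbS⟩ : ∃ b ∈ E0, (phi t2)^[k] b ∉ S := by
        by_contra hcon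
        push Not at hcon
        apply hne
        obtain ⟨b, hb, rfl⟩ := hcov e he
        have h3 := hcon b hb
        rw [← hmkS, hiter] at h3
        rcases Nat.eq_zero_or_pos k with hk | hk
        · subst hk
          have h4 : mk b = 1 := h3
          rw [h4, one_mul, mul_one]
        · obtain ⟨j, rfl⟩ := Nat.exists_eq_succ_of_ne_zero hk.ne'
          have h4 := phi_eq_one_of_iter hmtE hcop he j h3
          have h5 : mk b * mk t2 = mk t2 * mk b := commutatorElement_eq_one_iff_mul_comm.1 h4
          have h6 : mk t1 ∈ zpowers (mk t2) := by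
            have h7 : (orderOf (mk t1)).Coprime m := by
              rw [hm]
              apply Nat.Coprime.pow_right
              rw [Nat.coprime_two_right]
              exact htodd
            have h8 : zpowers (mk t2) = zpowers (mk t1) := by
              apply Subgroup.eq_of_le_of_card_ge
              · rw [Subgroup.zpowers_le, hmt]
                exact Subgroup.pow_mem _ (mem_zpowers _) m
              · rw [Nat.card_zpowers, Nat.card_zpowers, hmt, h7.orderOf_pow]
            rw [h8]
            exact mem_zpowers _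
          have h7 : mk t1 ∈ centralizer ({mk b} : Set (G ⧸ S)) := by
            refine (Subgroup.zpowers_le.2 ?_) h6
            exact mem_centralizer_singleton_iff.2 h5.symm
          exact (mem_centralizer_singleton_iff.1 h7).symm
      refine ⟨(phi t2)^[k] b, V_iter _ _ k, ?_, hbS, ?_⟩
      · refine hE0p.to_le ?_
        rw [zpowers_le]
        exact mem_iter ht2E0 hb k
      · have h3 : (phi t2)^[k] b ∈ E0 := mem_iter ht2E0 hb k
        obtain ⟨y, ⟨y', _, hy'⟩, hy⟩ := h3
        have h4 : (phi t2)^[k] b ∈ W := by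
          rw [← hy, ← hy']
          exact y'.2
        rw [← hmkS, map_mul]
        exact hE _ h4
    -- two conjugates of `v` generate a `2`-group
    have hgen : ∀ g : G, IsPGroup 2 (closure ({v, g * v * g⁻¹} : Set G)) := by
      intro g
      set H : Subgroup G := closure ({v, g * v * g⁻¹} : Set G) with hH
      have hHt : H ≠ ⊤ := by
        intro hHt
        apply hQns
        have h1 : Group.IsSolvable (closure ({mk v, mk (g * v * g⁻¹)} : Set (G ⧸ S))) := by
          apply H993.MinRed.isSolvable_closure_pair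
          · rw [← map_mul, hmkS]; exact hvE
          · rw [← map_mul, hmkS]
            have h2 : g * v * g⁻¹ * (g * v * g⁻¹) = g * (v * v) * g⁻¹ := by group
            rw [h2]
            exact hSn.conj_mem _ hvE g
        have h2 : closure ({mk v, mk (g * v * g⁻¹)} : Set (G ⧸ S)) = ⊤ := by
          have h3 : H.map mk = ⊤ := by rw [hHt]; exact Subgroup.map_top_of_surjective _ hmks
          rw [hH, MonoidHom.map_closure, Set.image_pair] at h3
          exact h3
        rw [h2] at h1
        exact Group.isSolvable_of_surjective (f := (⊤ : Subgroup (G ⧸ S)).subtype)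
          (fun x => ⟨⟨x, mem_top x⟩, rfl⟩)
      have hHs := hsub H hHt
      have hvals : ∀ x ∈ ({v, g * v * g⁻¹} : Set G), V k x ∧ IsPGroup 2 (zpowers x) := by
        intro x hx
        rcases hx with rfl | hx
        · exact ⟨hvV, hv2⟩
        · rw [Set.mem_singleton_iff] at hx
          subst hx
          refine ⟨V_conj k hvV g, ?_⟩
          have h1 : zpowers (g * v * g⁻¹) = (zpowers v).map (MulAut.conj g).toMonoidHom := by
            rw [MonoidHom.map_zpowers]; simp
          rw [h1]
          exact hv2.map _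
      refine isPGroup_of_gen (hG.subgroup H) (s := H.subtype ⁻¹' ({v, g * v * g⁻¹} : Set G)) ?_ ?_ ?_
      · exact Subgroup.closure_closure_coe_preimage
      · intro x hx
        have h1 := (hvals _ hx).2
        have h2 : (zpowers x).map H.subtype = zpowers (x : G) := by
          rw [MonoidHom.map_zpowers]; rfl
        rintro ⟨y, hy⟩
        have h3 : (y : G) ∈ zpowers (x : G) := h2 ▸ Subgroup.mem_map_of_mem H.subtype hy
        obtain ⟨n, hn⟩ := h1 ⟨(y : G), h3⟩
        refine ⟨n, ?_⟩
        apply Subtype.ext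
        apply Subtype.ext
        have h4 : (y : G) ^ 2 ^ n = 1 := congrArg Subtype.val hn
        simpa using h4
      · intro x hx d hd
        have hDn : (pPrimeCore 2 H).Normal := pPrimeCore_normal (G := H) 2
        have h1 := (hvals _ hx).1
        have h2 := (hvals _ hx).2
        have h3 : (d : G) * (x : G) = (x : G) * (d : G) := by
          refine hG.commute h1 (N := (pPrimeCore 2 H).map H.subtype) ?_ ?_ ⟨d, hd, rfl⟩
          · have key : ∀ b : H, ∀ z ∈ (pPrimeCore 2 H).map H.subtype,
                (b : G) * z * (b : G)⁻¹ ∈ (pPrimeCore 2 H).map H.subtype := by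
              rintro b _ ⟨z, hz, rfl⟩
              exact ⟨b * z * b⁻¹, hDn.conj_mem z hz b, by simp⟩
            rw [mem_normalizer_iff]
            intro z
            refine ⟨key x z, fun hz => ?_⟩
            have h4 := key x⁻¹ _ hz
            have h5 : ((x⁻¹ : H) : G) * (H.subtype x * z * (H.subtype x)⁻¹) * ((x⁻¹ : H) : G)⁻¹ = z := by
              rw [Subgroup.coe_inv, Subgroup.coe_subtype]; group
            rwa [h5] at h4
          · rw [Subgroup.card_map_of_injective H.subtype_injective]
            obtain ⟨n, hn⟩ := IsPGroup.iff_orderOf.1 h2 ⟨(x : G), mem_zpowers _⟩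
            have h6 : orderOf (x : G) = 2 ^ n := by
              rw [← hn]
              exact (Subgroup.orderOf_coe (⟨(x : G), mem_zpowers _⟩ : zpowers (x : G)))
            change (Nat.card (pPrimeCore 2 H)).Coprime (orderOf (x : G))
            rw [h6]
            exact (pPrimeCore_coprime 2).pow_right _
        exact Subtype.ext h3.symm
    -- Baer-Suzuki
    obtain ⟨N, hN, hNp, hvN⟩ := S0199.result (zpowers v) hv2 (by
      intro g
      refine (hgen g).to_le ?_
      rw [sup_le_iff, zpowers_le]
      refine ⟨subset_closure (by simp), ?_⟩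
      rw [MonoidHom.map_zpowers, zpowers_le]
      exact subset_closure (by simp))
    rcases (hN.map mk hmks).eq_bot_or_eq_top with hb | ht'
    · rw [Subgroup.map_eq_bot_iff, hmk, QuotientGroup.ker_mk'] at hb
      exact hvS (hb (hvN (mem_zpowers v)))
    · apply hQns
      have h1 : Group.IsSolvable (N.map mk) := MaxPGroup.isSolvable_of_isPGroup (hNp.map mk)
      rw [ht'] at h1
      exact Group.isSolvable_of_surjective (f := (⊤ : Subgroup (G ⧸ S)).subtype)
        (fun x => ⟨⟨x, mem_top x⟩, rfl⟩)

end Cfsg.Agent.H475.GammaMain
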